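import Mathlib
import Cfsg.Agent.H640.Red2

/-!
# Minimal polynomial lemma, characteristic zero (helper340)

`char0` : `H` finite, `τ : H →* M_n(ℂ)`, `x ∈ H`, `T` a finite set of roots of unity, any two of them having the same
`ℓ^k`-th power, `∏_{z ∈ T} (τ x - z) = 0`, `#T ≤ ℓ^a`. Then `x ^ ℓ^a` lies in a normal subgroup `N` of `H` whose image
modulo scalars is an `ℓ`-group.
-/

set_option autoImplicit false
set_option linter.unusedSectionVars false

namespace Cfsg.Agent.H340.MP

open Polynomial Matrix IsLocalRing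

/-- the transport lemma -/
theorem aeval_eq_zero_of {R k : Type*} [CommRing R] [Field k] {φ : R →+* k} (hu : ∀ a, φ a ≠ 0 → IsUnit a) {n : ℕ}
    (X : Matrix (Fin n) (Fin n) R) (f g : R[X]) (F : k[X]) (hfg : aeval X (f * g) = 0)
    (hF : aeval (X.map φ) F = 0) (hc : IsCoprime F (g.map φ)) : aeval X f = 0 := by
  have hmap : ∀ q : R[X], (aeval X q).map φ = aeval (X.map φ) (q.map φ) := by
    intro q
    have h1 : φ.mapMatrix (aeval X q) = aeval (φ.mapMatrix X) (q.map φ) := by
      induction q using Polynomial.induction_on' with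
      | add p q hp hq => rw [map_add, map_add, hp, hq, Polynomial.map_add, map_add]
      | monomial m a =>
        rw [aeval_monomial, map_mul, map_pow, Polynomial.map_monomial, aeval_monomial]
        congr 1
        ext i j
        rw [RingHom.mapMatrix_apply, Matrix.map_apply, Matrix.algebraMap_matrix_apply, Matrix.algebraMap_matrix_apply]
        split_ifs
        · rfl
        · exact map_zero φ
    exact h1
  obtain ⟨u, v, huv⟩ := hc
  have h1 : aeval (X.map φ) v * aeval (X.map φ) (g.map φ) = 1 := by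
    have h2 := congrArg (aeval (X.map φ)) huv
    rw [map_add, map_mul, map_mul, hF, mul_zero, zero_add, map_one] at h2
    exact h2
  have h3 : IsUnit (aeval X g) := by
    rw [Matrix.isUnit_iff_isUnit_det]
    apply hu
    rw [RingHom.map_det, RingHom.mapMatrix_apply, hmap]
    intro h4
    have h5 := congrArg Matrix.det h1
    rw [Matrix.det_mul, h4, mul_zero, Matrix.det_one] at h5
    exact zero_ne_one h5
  rw [map_mul] at hfg
  exact (IsUnit.mul_left_eq_zero h3).1 hfg

theorem eq_one_of_map {R k : Type*} [CommRing R] [IsDomain R] [Field k] {φ : R →+* k} {t : R} {r : ℕ}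
    (hr : (r : k) ≠ 0) (h : t ^ r = 1) (h1 : φ t = 1) : t = 1 := by
  have hgeom : (∑ i ∈ Finset.range r, t ^ i) * (t - 1) = 0 := by
    rw [geom_sum_mul, h, sub_self]
  have h2 : φ (∑ i ∈ Finset.range r, t ^ i) = (r : k) := by
    rw [map_sum]
    simp [h1]
  rcases mul_eq_zero.1 hgeom with h3 | h3
  · exfalso
    rw [h3, map_zero] at h2
    exact hr h2.symm
  · exact sub_eq_zero.1 h3

theorem eq_of_map {R k : Type*} [CommRing R] [IsDomain R] [Field k] {φ : R →+* k} {s t : R} {r : ℕ}
    (hr : (r : k) ≠ 0) (hs : s ^ r = 1) (ht : t ^ r = 1) (h1 : φ s = φ t) : s = t := by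
  have hr0 : r ≠ 0 := by
    rintro rfl
    exact hr Nat.cast_zero
  have ht' : t ^ (r - 1) * t = 1 := by
    rw [← pow_succ, Nat.sub_add_cancel (Nat.one_le_iff_ne_zero.2 hr0), ht]
  have h2 : s * t ^ (r - 1) = 1 := by
    refine eq_one_of_map hr (φ := φ) ?_ ?_
    · rw [mul_pow, hs, one_mul, ← pow_mul, mul_comm, pow_mul, ht, one_pow]
    · rw [map_mul, h1, ← map_mul, mul_comm, ht', map_one]
  calc s = s * (t ^ (r - 1) * t) := by rw [ht', mul_one]
    _ = t := by rw [← mul_assoc, h2, one_mul]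

theorem prod_roots {R : Type*} [CommRing R] [IsDomain R] {m : ℕ} (hm : 0 < m) {ζ : R} (hζ : IsPrimitiveRoot ζ m) :
    ∏ z ∈ nthRootsFinset m (1 : R), (Polynomial.X - C z) = (Polynomial.X : R[X]) ^ m - 1 :=
  (X_pow_sub_one_eq_prod hm hζ).symm

variable {H : Type*} [Group H] [Finite H]

/-- a matrix of order `m` which is scalar modulo the maximal ideal is scalar -/
theorem scalar_lift {R k : Type*} [CommRing R] [IsDomain R] [Field k] {φ : R →+* k}
    (hu : ∀ a, φ a ≠ 0 → IsUnit a) {n : ℕ} (Y : Matrix (Fin n) (Fin n) R) {m : ℕ} (hm : (m : k) ≠ 0) {ζ : R}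
    (hζ : IsPrimitiveRoot ζ m) (hY : Y ^ m = 1) {c : k} (hc : Y.map φ = c • (1 : Matrix (Fin n) (Fin n) k)) :
    ∃ z : R, Y = z • (1 : Matrix (Fin n) (Fin n) R) := by
  classical
  rcases Nat.eq_zero_or_pos n with hn | hn
  · subst hn
    exact ⟨1, Subsingleton.elim _ _⟩
  have hm0 : 0 < m := Nat.pos_of_ne_zero (by rintro rfl; exact hm Nat.cast_zero)
  have hprod := prod_roots hm0 hζ
  have hc1 : c ^ m = 1 := by
    have h1 : (Y ^ m).map φ = 1 := by rw [hY]; exact φ.mapMatrix.map_one
    have h2 : (Y ^ m).map φ = (Y.map φ) ^ m := φ.mapMatrix.map_pow Y m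
    rw [h2, hc, _root_.smul_pow, one_pow] at h1
    have h3 := congrArg (fun M : Matrix (Fin n) (Fin n) k => M ⟨0, hn⟩ ⟨0, hn⟩) h1
    simpa using h3
  have h0 : ∏ z ∈ nthRootsFinset m (1 : R), (c - φ z) = 0 := by
    have h1 := congrArg (fun q : R[X] => Polynomial.eval c (q.map φ)) hprod
    simp only [Polynomial.map_prod, Polynomial.eval_prod, Polynomial.map_sub, Polynomial.map_X, Polynomial.map_C,
      Polynomial.eval_sub, Polynomial.eval_X, Polynomial.eval_C, Polynomial.map_pow, Polynomial.map_one,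
      Polynomial.eval_pow, Polynomial.eval_one] at h1
    rw [h1, hc1, sub_self]
  obtain ⟨z, hz, hcz⟩ := Finset.prod_eq_zero_iff.1 h0
  have hcz' : c = φ z := sub_eq_zero.1 hcz
  have hz1 : z ^ m = 1 := (mem_nthRootsFinset hm0 _).1 hz
  refine ⟨z, ?_⟩
  have key := aeval_eq_zero_of hu Y (Polynomial.X - C z)
    (∏ w ∈ (nthRootsFinset m (1 : R)).erase z, (Polynomial.X - C w)) (Polynomial.X - C c)
    (by
      rw [Finset.mul_prod_erase _ (fun w => (Polynomial.X - C w : R[X])) hz, hprod]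
      simp [hY])
    (by
      rw [map_sub, aeval_X, aeval_C, hc, Algebra.algebraMap_eq_smul_one, sub_self])
    (by
      rw [Polynomial.map_prod]
      refine IsCoprime.prod_right fun w hw => ?_
      rw [Polynomial.map_sub, Polynomial.map_X, Polynomial.map_C]
      refine Polynomial.isCoprime_X_sub_C_of_isUnit_sub ?_
      rw [isUnit_iff_ne_zero, sub_ne_zero, hcz']
      intro h1
      refine (Finset.mem_erase.1 hw).1 ?_
      exact (eq_of_map hm hz1 ((mem_nthRootsFinset hm0 _).1 (Finset.mem_erase.1 hw).2) h1).symm)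
  rw [map_sub, aeval_X, aeval_C, Algebra.algebraMap_eq_smul_one, sub_eq_zero] at key
  exact key

theorem aeval_map {R k : Type*} [CommRing R] [CommRing k] (φ : R →+* k) {n : ℕ} (X : Matrix (Fin n) (Fin n) R)
    (q : R[X]) : (aeval X q).map φ = aeval (X.map φ) (q.map φ) := by
  have h1 : φ.mapMatrix (aeval X q) = aeval (φ.mapMatrix X) (q.map φ) := by
    induction q using Polynomial.induction_on' with
    | add p q hp hq => rw [map_add, map_add, hp, hq, Polynomial.map_add, map_add]
    | monomial m a =>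
      rw [aeval_monomial, map_mul, map_pow, Polynomial.map_monomial, aeval_monomial]
      congr 1
      ext i j
      rw [RingHom.mapMatrix_apply, Matrix.map_apply, Matrix.algebraMap_matrix_apply, Matrix.algebraMap_matrix_apply]
      split_ifs
      · rfl
      · exact map_zero φ
  exact h1

theorem aeval_conj {R : Type*} [CommRing R] {n : ℕ} (X P P' : Matrix (Fin n) (Fin n) R) (h1 : P * P' = 1)
    (h2 : P' * P = 1) (q : R[X]) : aeval (P' * X * P) q = P' * aeval X q * P := by
  have hpow : ∀ m : ℕ, (P' * X * P) ^ m = P' * X ^ m * P := by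
    intro m
    induction m with
    | zero => rw [pow_zero, pow_zero, mul_one, h2]
    | succ m ih =>
      rw [pow_succ, ih, pow_succ]
      calc P' * X ^ m * P * (P' * X * P) = P' * X ^ m * (P * P') * X * P := by simp only [mul_assoc]
        _ = P' * (X ^ m * X) * P := by rw [h1, mul_one, mul_assoc P']
  induction q using Polynomial.induction_on' with
  | add p q hp hq => rw [map_add, hp, hq, map_add, mul_add, add_mul]
  | monomial m a =>
    rw [aeval_monomial, aeval_monomial, hpow, Algebra.algebraMap_eq_smul_one, smul_mul_assoc, one_mul, smul_mul_assoc,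
      one_mul, mul_smul_comm, smul_mul_assoc]

/-- **The minimal polynomial lemma in characteristic zero.** -/
theorem char0 {n : ℕ} (τ : H →* Matrix (Fin n) (Fin n) ℂ) {l : ℕ} [Fact l.Prime] {x : H} {a : ℕ} (T : Finset ℂ)
    (h0 : aeval (τ x) (∏ z ∈ T, (Polynomial.X - C z)) = 0) (hroot : ∀ z ∈ T, ∃ m : ℕ, m ≠ 0 ∧ z ^ m = 1)
    (hpow : ∀ z ∈ T, ∀ w ∈ T, ∃ k : ℕ, z ^ l ^ k = w ^ l ^ k) (hcard : T.card ≤ l ^ a) :
    ∃ N : Subgroup H, N.Normal ∧ x ^ l ^ a ∈ N ∧
      ∀ h ∈ N, ∃ (k : ℕ) (c : ℂ), ¬ l ∣ orderOf (h ^ l ^ k) ∧ τ (h ^ l ^ k) = c • (1 : Matrix (Fin n) (Fin n) ℂ) := by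
  classical
  obtain ⟨B, hB⟩ := Cfsg.Agent.H640.exists_valRing l
  obtain ⟨σ, P, P', hP1, hP2, hσ⟩ := Cfsg.Agent.H640.exists_integral B τ
  let φ : B →+* ResidueField B := residue B
  have hu : ∀ b, φ b ≠ 0 → IsUnit b := fun b hb => (residue_ne_zero_iff_isUnit b).1 hb
  have hal : Function.Injective (algebraMap B ℂ) := fun u v huv => Subtype.ext huv
  -- the normal subgroup
  let N : Subgroup H :=
    { carrier := {h | ∃ c : ResidueField B, (σ h).map φ = c • (1 : Matrix (Fin n) (Fin n) (ResidueField B))}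
      one_mem' := ⟨1, by
        rw [map_one, one_smul]
        exact φ.mapMatrix.map_one⟩
      mul_mem' := by
        rintro g h ⟨c, hc⟩ ⟨d, hd⟩
        refine ⟨c * d, ?_⟩
        have h1 : (σ (g * h)).map φ = (σ g).map φ * (σ h).map φ := by
          rw [map_mul]
          exact φ.mapMatrix.map_mul _ _
        rw [h1, hc, hd, smul_mul_smul_comm, one_mul]
      inv_mem' := by
        rintro g ⟨c, hc⟩
        refine ⟨c⁻¹, ?_⟩
        have h1 : (σ g).map φ * (σ g⁻¹).map φ = 1 := by
          have h2 : (σ g * σ g⁻¹).map φ = (σ g).map φ * (σ g⁻¹).map φ := φ.mapMatrix.map_mul _ _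
          rw [← h2, ← map_mul, mul_inv_cancel, map_one]
          exact φ.mapMatrix.map_one
        rw [hc, smul_mul_assoc, one_mul] at h1
        rcases eq_or_ne c 0 with hc0 | hc0
        · rw [hc0, zero_smul] at h1
          have h3 : (σ g⁻¹).map φ = (σ g⁻¹).map φ * 1 := (mul_one _).symm
          rw [← h1, mul_zero] at h3
          rw [h3, ← h1, smul_zero]
        · rw [← h1, smul_smul, inv_mul_cancel₀ hc0, one_smul] }
  have hN : N.Normal := by
    constructor
    rintro h ⟨c, hc⟩ g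
    refine ⟨c, ?_⟩
    have h1 : (σ (g * h * g⁻¹)).map φ = (σ g).map φ * (σ h).map φ * (σ g⁻¹).map φ := by
      rw [map_mul, map_mul]
      have e1 : (σ g * σ h * σ g⁻¹).map φ = (σ g * σ h).map φ * (σ g⁻¹).map φ := φ.mapMatrix.map_mul _ _
      have e2 : (σ g * σ h).map φ = (σ g).map φ * (σ h).map φ := φ.mapMatrix.map_mul _ _
      rw [e1, e2]
    have h2 : (σ g).map φ * (σ g⁻¹).map φ = 1 := by
      have e2 : (σ g * σ g⁻¹).map φ = (σ g).map φ * (σ g⁻¹).map φ := φ.mapMatrix.map_mul _ _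
      rw [← e2, ← map_mul, mul_inv_cancel, map_one]
      exact φ.mapMatrix.map_one
    rw [h1, hc, mul_smul_comm, mul_one, smul_mul_assoc, h2]
  refine ⟨N, hN, ?_, ?_⟩
  · -- the power of `x`
    rcases Nat.eq_zero_or_pos n with hn | hn
    · subst hn
      exact ⟨1, Subsingleton.elim _ _⟩
    have hmem : ∀ z ∈ T, z ∈ B := by
      intro z hz
      obtain ⟨m, hm, h1⟩ := hroot z hz
      exact Cfsg.Agent.H640.mem_of_pow_eq_one hm h1
    let b : ℂ → B := fun z => if h : z ∈ B then ⟨z, h⟩ else 0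
    have hb : ∀ z ∈ T, algebraMap B ℂ (b z) = z := by
      intro z hz
      have : b z = ⟨z, hmem z hz⟩ := dif_pos (hmem z hz)
      rw [this]
      rfl
    have h1 : aeval (σ x) (∏ z ∈ T, (Polynomial.X - C (b z))) = 0 := by
      apply Matrix.map_injective hal
      change (aeval (σ x) (∏ z ∈ T, (Polynomial.X - C (b z)))).map (algebraMap B ℂ) =
        (0 : Matrix (Fin n) (Fin n) B).map (algebraMap B ℂ)
      rw [aeval_map (algebraMap B ℂ), hσ, Polynomial.map_prod]
      have h2 : ∏ z ∈ T, ((Polynomial.X - C (b z)).map (algebraMap B ℂ)) = ∏ z ∈ T, (Polynomial.X - C z) := by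
        refine Finset.prod_congr rfl fun z hz => ?_
        rw [Polynomial.map_sub, Polynomial.map_X, Polynomial.map_C, hb z hz]
      rw [h2, aeval_conj _ _ _ hP1 hP2, h0, mul_zero, zero_mul]
      ext i j
      simp
    have h2 : aeval ((σ x).map φ) (∏ z ∈ T, (Polynomial.X - C (φ (b z)))) = 0 := by
      have h3 : (aeval (σ x) (∏ z ∈ T, (Polynomial.X - C (b z)))).map φ =
        (0 : Matrix (Fin n) (Fin n) B).map φ := by rw [h1]
      rw [aeval_map φ, Polynomial.map_prod] at h3
      have h4 : ∏ z ∈ T, ((Polynomial.X - C (b z)).map φ) = ∏ z ∈ T, (Polynomial.X - C (φ (b z))) := by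
        refine Finset.prod_congr rfl fun z hz => ?_
        rw [Polynomial.map_sub, Polynomial.map_X, Polynomial.map_C]
      rw [h4] at h3
      rw [h3]
      ext i j
      simp
    have hne : T.Nonempty := by
      rw [Finset.nonempty_iff_ne_empty]
      intro hT
      rw [hT, Finset.prod_empty, map_one] at h2
      have h3 := congrArg (fun M : Matrix (Fin n) (Fin n) (ResidueField B) => M ⟨0, hn⟩ ⟨0, hn⟩) h2
      simp at h3
    obtain ⟨z₀, hz₀⟩ := hne
    have hall : ∀ z ∈ T, φ (b z) = φ (b z₀) := by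
      intro z hz
      obtain ⟨k, hk⟩ := hpow z hz z₀ hz₀
      have h3 : b z ^ l ^ k = b z₀ ^ l ^ k := by
        apply hal
        rw [map_pow, map_pow, hb z hz, hb z₀ hz₀, hk]
      have h4 := congrArg φ h3
      rw [map_pow, map_pow, ← sub_eq_zero, ← sub_pow_char_pow (p := l)] at h4
      exact sub_eq_zero.1 (eq_zero_of_pow_eq_zero h4)
    have h3 : ((σ x).map φ - φ (b z₀) • (1 : Matrix (Fin n) (Fin n) (ResidueField B))) ^ T.card = 0 := by
      rw [Finset.prod_congr rfl (fun z hz => by rw [hall z hz] :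
        ∀ z ∈ T, (Polynomial.X - C (φ (b z))) = Polynomial.X - C (φ (b z₀))), Finset.prod_const, map_pow, map_sub,
        aeval_X, aeval_C, Algebra.algebraMap_eq_smul_one] at h2
      exact h2
    have h4 : ((σ x).map φ - φ (b z₀) • (1 : Matrix (Fin n) (Fin n) (ResidueField B))) ^ l ^ a = 0 :=
      pow_eq_zero_of_le hcard h3
    have : Nonempty (Fin n) := ⟨⟨0, hn⟩⟩
    have hchar : CharP (Matrix (Fin n) (Fin n) (ResidueField B)) l := inferInstance
    rw [sub_pow_char_pow_of_commute _ _ (Commute.smul_right (Commute.one_right _) _), sub_eq_zero] at h4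
    refine ⟨φ (b z₀) ^ l ^ a, ?_⟩
    have h5 : (σ (x ^ l ^ a)).map φ = ((σ x).map φ) ^ l ^ a := by
      rw [map_pow]
      exact map_pow φ.mapMatrix (σ x) _
    rw [h5, h4, _root_.smul_pow, one_pow]
  · -- elements of `N`
    rintro h ⟨c, hc⟩
    obtain ⟨k, m, hm, hord⟩ : ∃ k m : ℕ, ¬ l ∣ m ∧ orderOf h = l ^ k * m := by
      obtain ⟨k, m, hm, h1⟩ := Nat.exists_eq_pow_mul_and_not_dvd (orderOf_pos h).ne' l (Fact.out : l.Prime).ne_one
      exact ⟨k, m, hm, h1⟩
    have hm0 : m ≠ 0 := by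
      rintro rfl
      exact hm (dvd_zero l)
    have ho : orderOf (h ^ l ^ k) = m := by
      rw [orderOf_pow, hord, Nat.gcd_eq_right (Dvd.intro _ rfl),
        Nat.mul_div_cancel_left _ (pow_pos (Fact.out : l.Prime).pos k)]
    have hNk : h ^ l ^ k ∈ N := N.pow_mem ⟨c, hc⟩ _
    obtain ⟨c', hc'⟩ := hNk
    -- a primitive root of unity
    obtain ⟨ζ, hζ⟩ : ∃ ζ : B, IsPrimitiveRoot ζ m := by
      have hζ0 := Complex.isPrimitiveRoot_exp m hm0
      have hmem : Complex.exp (2 * Real.pi * Complex.I / m) ∈ B :=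
        Cfsg.Agent.H640.mem_of_pow_eq_one hm0 hζ0.pow_eq_one
      refine ⟨⟨_, hmem⟩, ?_⟩
      exact IsPrimitiveRoot.of_map_of_injective (f := algebraMap B ℂ) hζ0 hal
    have hmk : (m : ResidueField B) ≠ 0 := by
      intro h1
      exact hm ((CharP.cast_eq_zero_iff (ResidueField B) l m).1 h1)
    have hYm : (σ (h ^ l ^ k)) ^ m = 1 := by
      rw [← map_pow, ← ho, pow_orderOf_eq_one, map_one]
    obtain ⟨z, hz⟩ := scalar_lift hu (σ (h ^ l ^ k)) hmk hζ hYm hc'
    refine ⟨k, (z : ℂ), by rw [ho]; exact hm, ?_⟩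
    have h1 := hσ (h ^ l ^ k)
    rw [hz] at h1
    have h2 : (z • (1 : Matrix (Fin n) (Fin n) B)).map (algebraMap B ℂ) =
        (z : ℂ) • (1 : Matrix (Fin n) (Fin n) ℂ) := by
      ext i j
      rw [Matrix.map_apply, Matrix.smul_apply, Matrix.smul_apply, smul_eq_mul, smul_eq_mul, map_mul,
        Matrix.one_apply, Matrix.one_apply]
      split_ifs <;> simp
    rw [h2] at h1
    calc τ (h ^ l ^ k) = (P * P') * τ (h ^ l ^ k) * (P * P') := by rw [hP1, one_mul, mul_one]
      _ = P * (P' * τ (h ^ l ^ k) * P) * P' := by simp only [mul_assoc]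
      _ = (z : ℂ) • (1 : Matrix (Fin n) (Fin n) ℂ) := by
        rw [← h1, mul_smul_comm, mul_one, smul_mul_assoc, hP1]

end Cfsg.Agent.H340.MP
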