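import Mathlib
import Cfsg.Agent.H831.RepLift
import Cfsg.Agent.S0199

/-!
# Elements of prime order with small support (helper340)

`mem_pCore` : `H` a finite `p'`-group acting faithfully on `V` over a finite field of characteristic `p`, `y ∈ H` of
prime order `r`, `4 dim [V,y] + 1 < r`. Then `y ∈ O_r(H)`. (Two conjugates of `y` act faithfully in degree
`≤ 2 dim [V,y]`, so they generate an `r`-group by Feit-Thompson; Baer-Suzuki.)
-/

set_option autoImplicit false

namespace Cfsg.Agent.H340.MP

open Module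

section

variable {F V : Type*} [Field F] [AddCommGroup V] [Module F V] {H : Type*} [Group H]

/-- the commutator space of an element -/
def comSp (ρ : H →* (V ≃ₗ[F] V)) (y : H) : Submodule F V :=
  LinearMap.range ((ρ y : V ≃ₗ[F] V).toLinearMap - LinearMap.id)

theorem mem_comSp (ρ : H →* (V ≃ₗ[F] V)) (y : H) (v : V) : ρ y v - v ∈ comSp ρ y := ⟨v, rfl⟩

theorem comSp_conj (ρ : H →* (V ≃ₗ[F] V)) (g y : H) :
    comSp ρ (g * y * g⁻¹) = (comSp ρ y).map (ρ g).toLinearMap := by
  ext v
  constructor
  · rintro ⟨w, rfl⟩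
    refine ⟨ρ y (ρ g⁻¹ w) - ρ g⁻¹ w, mem_comSp ρ y _, ?_⟩
    have h1 : ρ g (ρ g⁻¹ w) = w := by
      rw [← LinearEquiv.mul_apply, ← map_mul, mul_inv_cancel, map_one]
      rfl
    show ρ g (ρ y (ρ g⁻¹ w) - ρ g⁻¹ w) = ρ (g * y * g⁻¹) w - w
    rw [map_sub, h1, map_mul, map_mul]
    rfl
  · rintro ⟨_, ⟨w, rfl⟩, rfl⟩
    refine ⟨ρ g w, ?_⟩
    show ρ (g * y * g⁻¹) (ρ g w) - ρ g w = ρ g (ρ y w - w)
    have h1 : ρ g⁻¹ (ρ g w) = w := by
      rw [← LinearEquiv.mul_apply, ← map_mul, inv_mul_cancel, map_one]
      rfl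
    rw [map_sub, map_mul, map_mul, LinearEquiv.mul_apply, LinearEquiv.mul_apply, h1]

theorem finrank_comSp_conj (ρ : H →* (V ≃ₗ[F] V)) (g y : H) :
    finrank F (comSp ρ (g * y * g⁻¹)) = finrank F (comSp ρ y) := by
  rw [comSp_conj]
  exact LinearEquiv.finrank_eq ((ρ g).submoduleMap (comSp ρ y)).symm

end

theorem isPGroup_of_le {F V : Type*} [Field F] [Finite F] [AddCommGroup V] [Module F V] [FiniteDimensional F V]
    {p : ℕ} [Fact p.Prime] [CharP F p] {H : Type*} [Group H] [Finite H] (hcop : ¬ p ∣ Nat.card H)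
    (ρ : H →* (V ≃ₗ[F] V)) (hρ : Function.Injective ρ) {r : ℕ} [Fact r.Prime] {a b : H} (ha : a ^ r = 1)
    (hb : b ^ r = 1) (hd : 2 * (finrank F (comSp ρ a) + finrank F (comSp ρ b)) + 1 < r) :
    IsPGroup r ↥(Subgroup.closure {a, b}) := by
  classical
  set U : Submodule F V := comSp ρ a ⊔ comSp ρ b with hU
  set Y : Subgroup H := Subgroup.closure {a, b} with hY
  have hgen : ∀ g ∈ Y, ∀ v : V, ρ g v - v ∈ U := by
    intro g hg
    induction hg using Subgroup.closure_induction with
    | mem x hx =>
      intro v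
      rcases hx with rfl | hx
      · exact Submodule.mem_sup_left (mem_comSp ρ _ v)
      · rw [Set.mem_singleton_iff] at hx
        subst hx
        exact Submodule.mem_sup_right (mem_comSp ρ _ v)
    | one => intro v; rw [map_one]; show v - v ∈ U; rw [sub_self]; exact U.zero_mem
    | mul x y _ _ hx hy =>
      intro v
      have h1 : ρ (x * y) v - v = (ρ x (ρ y v) - ρ y v) + (ρ y v - v) := by
        rw [map_mul, LinearEquiv.mul_apply]; abel
      rw [h1]
      exact U.add_mem (hx _) (hy _)
    | inv x _ hx =>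
      intro v
      have h1 : ρ x (ρ x⁻¹ v) = v := by
        rw [← LinearEquiv.mul_apply, ← map_mul, mul_inv_cancel, map_one]
        rfl
      have h2 := hx (ρ x⁻¹ v)
      rw [h1] at h2
      have h3 := U.neg_mem h2
      rwa [neg_sub] at h3
  have hinv : ∀ g ∈ Y, ∀ v ∈ U, ρ g v ∈ U := by
    intro g hg v hv
    have h1 := U.add_mem (hgen g hg v) hv
    rwa [sub_add_cancel] at h1
  -- the representation on `U`
  let rep : Y →* (U ≃ₗ[F] U) :=
    { toFun := fun g => LinearEquiv.ofLinearMap
        ((ρ (g : H)).toLinearMap.restrict (fun v hv => hinv g g.2 v hv))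
        ((ρ ((g : H)⁻¹)).toLinearMap.restrict (fun v hv => hinv _ (Y.inv_mem g.2) v hv))
        (by
          apply LinearMap.ext
          intro v
          apply Subtype.ext
          show ρ (g : H) (ρ ((g : H)⁻¹) v) = v
          rw [← LinearEquiv.mul_apply, ← map_mul, mul_inv_cancel, map_one]
          rfl)
        (by
          apply LinearMap.ext
          intro v
          apply Subtype.ext
          show ρ ((g : H)⁻¹) (ρ (g : H) v) = v
          rw [← LinearEquiv.mul_apply, ← map_mul, inv_mul_cancel, map_one]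
          rfl)
      map_one' := by
        apply LinearEquiv.ext
        intro v
        apply Subtype.ext
        show ρ ((1 : Y) : H) v = v
        rw [Subgroup.coe_one, map_one]
        rfl
      map_mul' := fun g h => by
        apply LinearEquiv.ext
        intro v
        apply Subtype.ext
        show ρ ((g * h : Y) : H) v = ρ (g : H) (ρ (h : H) v)
        rw [Subgroup.coe_mul, map_mul]
        rfl }
  have hrep : ∀ (g : Y) (v : U), ((rep g v : U) : V) = ρ (g : H) v := fun g v => rfl
  have hinj : Function.Injective rep := by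
    rw [injective_iff_map_eq_one]
    intro g hg
    have h1 : ∀ u ∈ U, ρ (g : H) u = u := by
      intro u hu
      have h2 := congrArg (fun e : U ≃ₗ[F] U => ((e ⟨u, hu⟩ : U) : V)) hg
      exact h2
    have h2 : ∀ (k : ℕ) (v : V), ρ ((g : H) ^ k) v = v + (k : F) • (ρ (g : H) v - v) := by
      intro k v
      induction k with
      | zero => rw [pow_zero, map_one, Nat.cast_zero, zero_smul, add_zero]; rfl
      | succ k ih =>
        rw [pow_succ', map_mul, LinearEquiv.mul_apply, ih, map_add, map_smul, h1 _ (hgen g g.2 v), Nat.cast_succ,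
          add_smul, one_smul]
        abel
    have h3 : (g : H) ^ p = 1 := by
      apply hρ
      apply LinearEquiv.ext
      intro v
      rw [h2, CharP.cast_eq_zero, zero_smul, add_zero, map_one]
      rfl
    have h4 : orderOf (g : H) ∣ p := orderOf_dvd_of_pow_eq_one h3
    rcases (Nat.dvd_prime (Fact.out : p.Prime)).1 h4 with h5 | h5
    · exact Subtype.ext (orderOf_eq_one_iff.1 h5)
    · exfalso
      exact hcop (h5 ▸ orderOf_dvd_natCard (g : H))
  -- complex representation
  let B := Module.finBasis F U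
  let m := finrank F U
  let e : (U ≃ₗ[F] U) ≃* GL (Fin m) F := (LinearMap.GeneralLinearGroup.generalLinearEquiv F U).symm.trans
      (Units.mapEquiv (LinearMap.toMatrixAlgEquiv B).toMulEquiv)
  let σ : Y →* GL (Fin m) F := e.toMonoidHom.comp rep
  have hσ : Function.Injective σ := by
    intro u v huv
    exact hinj (e.injective huv)
  have hcopY : ¬ p ∣ Nat.card Y := fun h => hcop (h.trans (Subgroup.card_subgroup_dvd_card Y))
  obtain ⟨τ, hτ⟩ := Cfsg.Agent.H831.RepLift.exists_complex hcopY σ hσ
  have hm : m ≤ finrank F (comSp ρ a) + finrank F (comSp ρ b) := Submodule.finrank_add_le_finrank_add_finrank _ _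
  have haY : a ∈ Y := Subgroup.subset_closure (Set.mem_insert _ _)
  have hbY : b ∈ Y := Subgroup.subset_closure (Set.mem_insert_of_mem _ rfl)
  have hnorm : ∀ P : Sylow r Y, (P : Subgroup Y).Normal := by
    rcases Nat.eq_zero_or_pos m with hm0 | hm0
    · have hsub : ∀ u v : Y, u = v := by
        intro u v
        apply hτ
        apply LinearMap.ext
        intro w
        have : Subsingleton (Fin m → ℂ) := by
          rw [hm0]
          infer_instance
        exact Subsingleton.elim _ _
      intro P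
      constructor
      intro n hn g
      rwa [hsub (g * n * g⁻¹) n]
    · intro P
      exact Cfsg.Agent.H717.FT.normal_of_lt hm0 τ hτ (by omega) P
  obtain ⟨P⟩ : Nonempty (Sylow r Y) := inferInstance
  have hPn := hnorm P
  have hall : ∀ u : Y, u ^ r = 1 → u ∈ (P : Subgroup Y) := by
    intro u hu
    have h1 : IsPGroup r ↥(Subgroup.zpowers u) := by
      rw [IsPGroup.iff_card]
      rw [Nat.card_zpowers]
      rcases (Nat.dvd_prime (Fact.out : r.Prime)).1 (orderOf_dvd_of_pow_eq_one hu) with h2 | h2
      · exact ⟨0, by rw [h2, pow_zero]⟩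
      · exact ⟨1, by rw [h2, pow_one]⟩
    obtain ⟨Q, hQ⟩ := h1.exists_le_sylow
    have h3 : Q = P := by
      have hun := Sylow.unique_of_normal P hPn
      exact Subsingleton.elim _ _
    rw [← h3]
    exact hQ (Subgroup.mem_zpowers u)
  have htop : (P : Subgroup Y) = ⊤ := by
    rw [eq_top_iff]
    have h1 : Subgroup.closure {(⟨a, haY⟩ : Y), ⟨b, hbY⟩} ≤ (P : Subgroup Y) := by
      rw [Subgroup.closure_le]
      rintro u (rfl | hu)
      · exact hall _ (Subtype.ext ha)
      · rw [Set.mem_singleton_iff] at hu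
        subst hu
        exact hall _ (Subtype.ext hb)
    refine le_trans ?_ h1
    intro u _
    have h2 : (Subgroup.closure {(⟨a, haY⟩ : Y), ⟨b, hbY⟩}).map Y.subtype = Y := by
      rw [MonoidHom.map_closure, Set.image_pair]
      rfl
    have h3 : (u : H) ∈ (Subgroup.closure {(⟨a, haY⟩ : Y), ⟨b, hbY⟩}).map Y.subtype := by
      rw [h2]
      exact u.2
    obtain ⟨w, hw, hwu⟩ := h3
    have h4 : w = u := Subtype.ext hwu
    rwa [← h4]
  have h1 : IsPGroup r ↥(P : Subgroup Y) := P.isPGroup'
  rw [htop] at h1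
  exact h1.of_equiv Subgroup.topEquiv

/-- **Elements of prime order with small support lie in `O_r`.** -/
theorem mem_pCore {F V : Type*} [Field F] [Finite F] [AddCommGroup V] [Module F V] [FiniteDimensional F V]
    {p : ℕ} [Fact p.Prime] [CharP F p] {H : Type*} [Group H] [Finite H] (hcop : ¬ p ∣ Nat.card H)
    (ρ : H →* (V ≃ₗ[F] V)) (hρ : Function.Injective ρ) {r : ℕ} [Fact r.Prime] {y : H} (hy : y ^ r = 1)
    (hd : 4 * finrank F (comSp ρ y) + 1 < r) : y ∈ Cfsg.pCore r H := by
  classical
  have hz : IsPGroup r ↥(Subgroup.zpowers y) := by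
    rw [IsPGroup.iff_card, Nat.card_zpowers]
    rcases (Nat.dvd_prime (Fact.out : r.Prime)).1 (orderOf_dvd_of_pow_eq_one hy) with h2 | h2
    · exact ⟨0, by rw [h2, pow_zero]⟩
    · exact ⟨1, by rw [h2, pow_one]⟩
  obtain ⟨N, hN, hNp, hyN⟩ := Cfsg.Agent.S0199.result (Subgroup.zpowers y) hz (fun g => by
    have h1 := isPGroup_of_le hcop ρ hρ (r := r) (a := y) (b := g * y * g⁻¹) hy
      (by rw [conj_pow, hy, mul_one, mul_inv_cancel]) (by rw [finrank_comSp_conj]; omega)
    refine h1.to_le ?_
    rw [MonoidHom.map_zpowers]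
    refine sup_le ?_ ?_
    · rw [Subgroup.zpowers_le]
      exact Subgroup.subset_closure (Set.mem_insert _ _)
    · rw [Subgroup.zpowers_le]
      exact Subgroup.subset_closure (Set.mem_insert_of_mem _ rfl))
  exact (le_sSup (show N ∈ {N : Subgroup H | N.Normal ∧ IsPGroup r N} from ⟨hN, hNp⟩) : N ≤ Cfsg.pCore r H)
    (hyN (Subgroup.mem_zpowers y))

end Cfsg.Agent.H340.MP
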