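import Mathlib
import Cfsg.Agent.H340.MP.CharP

/-!
# The minimal polynomial lemma, polynomial form (helper340)

`poly` : `H` a finite group of order prime to `p`, `σ : H →* GL_n(F)`, `F` finite of characteristic `p`, `x ∈ H`,
`σ(x)^(l^b)` scalar, `P(σ(x)) = 0` for some `P ≠ 0` in `F[X]` of degree `≤ l^a`. Then `x ^ l^a` lies in a normal subgroup
`N` of `H` whose image modulo scalars is an `l`-group.
-/

set_option autoImplicit false
set_option linter.unusedSectionVars false

namespace Cfsg.Agent.H340.MP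

open Polynomial Matrix Cfsg.Agent.H831.RepLift

variable {H : Type*} [Group H] [Finite H]

theorem poly {F : Type*} [Field F] [Finite F] {p : ℕ} [Fact p.Prime] [CharP F p] (hcop : ¬ p ∣ Nat.card H)
    {n : ℕ} (σ : H →* GL (Fin n) F) {l : ℕ} [Fact l.Prime] {x : H} {a b : ℕ} {c₀ : F} {P : F[X]} (hP : P ≠ 0)
    (h0 : aeval ((σ x : GL (Fin n) F) : Matrix (Fin n) (Fin n) F) P = 0)
    (hx : ((σ x : GL (Fin n) F) : Matrix (Fin n) (Fin n) F) ^ l ^ b = c₀ • (1 : Matrix (Fin n) (Fin n) F))
    (hdeg : P.natDegree ≤ l ^ a) :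
    ∃ N : Subgroup H, N.Normal ∧ x ^ l ^ a ∈ N ∧
      ∀ h ∈ N, ∃ (k : ℕ) (c : F), ¬ l ∣ orderOf (h ^ l ^ k) ∧
        ((σ (h ^ l ^ k) : GL (Fin n) F) : Matrix (Fin n) (Fin n) F) = c • (1 : Matrix (Fin n) (Fin n) F) := by
  classical
  let _ : Algebra (ZMod p) F := ZMod.algebra F p
  have hfin : Module.Finite (ZMod p) F := Module.Finite.of_finite
  let j : F →ₐ[ZMod p] SmallSimple.WittRing.kbar p := IsAlgClosed.lift
  let j' : F →+* SmallSimple.WittRing.kbar p := j
  have hj : Function.Injective j' := j.injective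
  let σ' : H →* GL (Fin n) (SmallSimple.WittRing.kbar p) := (Matrix.GeneralLinearGroup.map (j : F →+* _)).comp σ
  obtain ⟨τ, hτ⟩ := exists_lift (res_witt p) (D := H) (by
    intro h
    exact hcop ((CharP.cast_eq_zero_iff (SmallSimple.WittRing.kbar p) p _).1 h)) σ'
  obtain ⟨ι, hι⟩ := SmallSimple.WittRing.exists_embedding p
  let φ : SmallSimple.WittRing.A p →+* SmallSimple.WittRing.kbar p :=
    WittVector.constantCoeff (p := p) (R := SmallSimple.WittRing.kbar p)
  have hu : ∀ b, φ b ≠ 0 → IsUnit b := fun b hb => (res_witt p).isUnit hb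
  have hτv : ∀ g, (((τ g : GL (Fin n) (SmallSimple.WittRing.A p)) :
      Matrix (Fin n) (Fin n) (SmallSimple.WittRing.A p)).map φ) =
      ((σ g : GL (Fin n) F) : Matrix (Fin n) (Fin n) F).map j' := by
    intro g
    have h3 := congrArg (fun x : GL (Fin n) (SmallSimple.WittRing.kbar p) =>
      (x : Matrix (Fin n) (Fin n) (SmallSimple.WittRing.kbar p))) (hτ g)
    exact h3
  let f : H →* Matrix (Fin n) (Fin n) ℂ :=
    (ι.mapMatrix : Matrix (Fin n) (Fin n) (SmallSimple.WittRing.A p) →+* Matrix (Fin n) (Fin n) ℂ).toMonoidHom.comp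
      ((Units.coeHom _).comp τ)
  have hfv : ∀ g, f g = ((τ g : GL (Fin n) (SmallSimple.WittRing.A p)) :
      Matrix (Fin n) (Fin n) (SmallSimple.WittRing.A p)).map ι := fun g => rfl
  -- roots of unity
  have hm0 : 0 < orderOf x := orderOf_pos x
  have hmp : ¬ p ∣ orderOf x := fun h => hcop (h.trans (orderOf_dvd_natCard x))
  have hmk : ((orderOf x : ℕ) : SmallSimple.WittRing.kbar p) ≠ 0 := fun h =>
    hmp ((CharP.cast_eq_zero_iff (SmallSimple.WittRing.kbar p) p _).1 h)
  obtain ⟨ζ, hζ⟩ := SmallSimple.WittRing.exists_isPrimitiveRoot p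
    (n := orderOf x) ((Nat.Prime.coprime_iff_not_dvd (Fact.out : p.Prime)).2 hmp).symm
  have hprod := prod_roots hm0 hζ
  have hroot : ∀ z ∈ nthRootsFinset (orderOf x) (1 : SmallSimple.WittRing.A p), z ^ orderOf x = 1 :=
    fun z hz => (mem_nthRootsFinset hm0 _).1 hz
  let Tall := nthRootsFinset (orderOf x) (1 : SmallSimple.WittRing.A p)
  let Q : (SmallSimple.WittRing.kbar p)[X] := Polynomial.X ^ l ^ b - C (j' c₀)
  let P' := P.map j'
  have hP' : P' ≠ 0 := (Polynomial.map_ne_zero_iff hj).2 hP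
  let T1 := Tall.filter fun z => P'.IsRoot (φ z) ∧ Q.IsRoot (φ z)
  let T2 := Tall.filter fun z => ¬ (P'.IsRoot (φ z) ∧ Q.IsRoot (φ z))
  have hPx : aeval (((σ x : GL (Fin n) F) : Matrix (Fin n) (Fin n) F).map j') P' = 0 := by
    rw [← aeval_map, h0]
    ext i k
    simp
  have hQx : aeval (((σ x : GL (Fin n) F) : Matrix (Fin n) (Fin n) F).map j') Q = 0 := by
    have h2 : Q = (Polynomial.X ^ l ^ b - C c₀ : F[X]).map j' := by
      rw [Polynomial.map_sub, Polynomial.map_pow, Polynomial.map_X, Polynomial.map_C]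
    rw [h2, ← aeval_map, map_sub, map_pow, aeval_X, aeval_C, hx, Algebra.algebraMap_eq_smul_one, sub_self]
    ext i k
    simp
  have h1 : aeval ((τ x : GL (Fin n) (SmallSimple.WittRing.A p)) :
      Matrix (Fin n) (Fin n) (SmallSimple.WittRing.A p)) (∏ z ∈ T1, (Polynomial.X - C z)) = 0 := by
    refine aeval_eq_zero_of (φ := φ) hu _ _ (∏ z ∈ T2, (Polynomial.X - C z)) (EuclideanDomain.gcd P' Q) ?_ ?_ ?_
    · rw [Finset.prod_filter_mul_prod_filter_not, hprod, map_sub, map_pow, aeval_X, map_one]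
      have h2 : (τ x) ^ orderOf x = 1 := by rw [← map_pow, pow_orderOf_eq_one, map_one]
      have h3 := congrArg (fun x : GL (Fin n) (SmallSimple.WittRing.A p) =>
        (x : Matrix (Fin n) (Fin n) (SmallSimple.WittRing.A p))) h2
      simp only [Units.val_pow_eq_pow_val, Units.val_one] at h3
      rw [h3, sub_self]
    · rw [hτv, EuclideanDomain.gcd_eq_gcd_ab P' Q, map_add, map_mul, map_mul, hPx, hQx, zero_mul, zero_mul, add_zero]
    · rw [Polynomial.map_prod]
      refine IsCoprime.prod_right fun z hz => ?_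
      rw [Polynomial.map_sub, Polynomial.map_X, Polynomial.map_C]
      rw [isCoprime_comm, (Polynomial.irreducible_X_sub_C (φ z)).coprime_iff_not_dvd]
      intro h2
      refine (Finset.mem_filter.1 hz).2 ⟨?_, ?_⟩
      · exact Polynomial.dvd_iff_isRoot.1 (h2.trans (EuclideanDomain.gcd_dvd_left _ _))
      · exact Polynomial.dvd_iff_isRoot.1 (h2.trans (EuclideanDomain.gcd_dvd_right _ _))
  have hinj : ∀ z ∈ T1, ∀ w ∈ T1, φ z = φ w → z = w := by
    intro z hz w hw hzw
    exact eq_of_map hmk (hroot z (Finset.mem_filter.1 hz).1) (hroot w (Finset.mem_filter.1 hw).1) hzw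
  have hQr : ∀ z ∈ T1, (φ z) ^ l ^ b = j' c₀ := by
    intro z hz
    have h2 := (Finset.mem_filter.1 hz).2.2
    rw [Polynomial.IsRoot.def, Polynomial.eval_sub, Polynomial.eval_pow, Polynomial.eval_X, Polynomial.eval_C,
      sub_eq_zero] at h2
    exact h2
  obtain ⟨N, hN, hxN, hNs⟩ := char0 (l := l) (x := x) (a := a) f (T1.image ι) (by
      have h2 : ∏ w ∈ T1.image ι, (Polynomial.X - C w) = (∏ z ∈ T1, (Polynomial.X - C z)).map ι := by
        rw [Polynomial.map_prod, Finset.prod_image (fun a _ b _ hab => hι hab)]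
        refine Finset.prod_congr rfl fun z hz => ?_
        rw [Polynomial.map_sub, Polynomial.map_X, Polynomial.map_C]
      rw [hfv, h2, ← aeval_map, h1]
      ext i k
      simp)
    (by
      intro z hz
      obtain ⟨w, hw, rfl⟩ := Finset.mem_image.1 hz
      refine ⟨orderOf x, hm0.ne', ?_⟩
      rw [← map_pow, hroot w (Finset.mem_filter.1 hw).1, map_one])
    (by
      intro z hz w hw
      obtain ⟨z', hz', rfl⟩ := Finset.mem_image.1 hz
      obtain ⟨w', hw', rfl⟩ := Finset.mem_image.1 hw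
      refine ⟨b, ?_⟩
      rw [← map_pow, ← map_pow]
      congr 1
      refine eq_of_map (φ := φ) hmk (r := orderOf x) ?_ ?_ ?_
      · rw [← pow_mul, mul_comm, pow_mul, hroot z' (Finset.mem_filter.1 hz').1, one_pow]
      · rw [← pow_mul, mul_comm, pow_mul, hroot w' (Finset.mem_filter.1 hw').1, one_pow]
      · rw [map_pow, map_pow, hQr z' hz', hQr w' hw'])
    (by
      refine Finset.card_image_le.trans (le_trans ?_ hdeg)
      have h2 : P'.natDegree = P.natDegree := Polynomial.natDegree_map_eq_of_injective hj P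
      rw [← h2]
      refine le_trans ?_ (le_trans (Multiset.toFinset_card_le P'.roots) (Polynomial.card_roots' P'))
      refine Finset.card_le_card_of_injOn φ (fun z hz => ?_) (fun z hz w hw h => hinj z hz w hw h)
      simp only [Finset.mem_coe, Multiset.mem_toFinset]
      exact (Polynomial.mem_roots hP').2 (Finset.mem_filter.1 hz).2.1)
  refine ⟨N, hN, hxN, fun h hh => ?_⟩
  obtain ⟨k, c, hk, hc⟩ := hNs h hh
  rw [hfv] at hc
  have hoff : ∀ i m : Fin n, i ≠ m → ((σ (h ^ l ^ k) : GL (Fin n) F) : Matrix (Fin n) (Fin n) F) i m = 0 := by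
    intro i m him
    apply hj
    have h2 := congrArg (fun M => M i m) (hτv (h ^ l ^ k))
    have h3 := congrArg (fun M => M i m) hc
    simp only [Matrix.map_apply, Matrix.smul_apply, Matrix.one_apply, if_neg him, smul_eq_mul, mul_zero] at h2 h3
    rw [← h2, map_zero]
    have h4 : ((τ (h ^ l ^ k) : GL (Fin n) (SmallSimple.WittRing.A p)) :
      Matrix (Fin n) (Fin n) (SmallSimple.WittRing.A p)) i m = 0 := hι (by rw [h3, map_zero])
    rw [h4, map_zero]
  have hdiag : ∀ i m : Fin n, ((σ (h ^ l ^ k) : GL (Fin n) F) : Matrix (Fin n) (Fin n) F) i i =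
      ((σ (h ^ l ^ k) : GL (Fin n) F) : Matrix (Fin n) (Fin n) F) m m := by
    intro i m
    apply hj
    have h2 := congrArg (fun M => M i i) (hτv (h ^ l ^ k))
    have h2' := congrArg (fun M => M m m) (hτv (h ^ l ^ k))
    have h3 := congrArg (fun M => M i i) hc
    have h3' := congrArg (fun M => M m m) hc
    simp only [Matrix.map_apply, Matrix.smul_apply, Matrix.one_apply_eq, smul_eq_mul, mul_one] at h2 h3 h2' h3'
    rw [← h2, ← h2']
    congr 1
    exact hι (by rw [h3, h3'])
  obtain ⟨c', hc'⟩ := Cfsg.Agent.H845.LiftIrr.scalar_of hoff hdiag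
  exact ⟨k, c', hk, hc'⟩

end Cfsg.Agent.H340.MP
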