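import Mathlib
import Cfsg.Agent.H340.MP.Poly

/-!
# The minimal polynomial lemma, faithful version (helper340)

`poly_one` : `H` a finite group of order prime to `p`, `σ : H →* GL_n(F)` injective, `F` finite of characteristic `p`,
`x ∈ H` an `l`-element, `P(σ(x)) = 0` for some `P ≠ 0` in `F[X]` of degree `≤ l^a`. Then `x ^ l^a ∈ O_l(H)`.
-/

set_option autoImplicit false
set_option linter.unusedSectionVars false

namespace Cfsg.Agent.H340.MP

open Polynomial Matrix IsLocalRing Cfsg.Agent.H831.RepLift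

variable {H : Type*} [Group H] [Finite H]

/-- The minimal polynomial lemma in characteristic zero, faithful version. -/
theorem char0_one {n : ℕ} (τ : H →* Matrix (Fin n) (Fin n) ℂ) {l : ℕ} [Fact l.Prime] {x : H} {a : ℕ} (T : Finset ℂ)
    (h0 : aeval (τ x) (∏ z ∈ T, (Polynomial.X - C z)) = 0) (hroot : ∀ z ∈ T, ∃ m : ℕ, m ≠ 0 ∧ z ^ m = 1)
    (hpow : ∀ z ∈ T, ∃ k : ℕ, z ^ l ^ k = 1) (hcard : T.card ≤ l ^ a) :
    ∃ N : Subgroup H, N.Normal ∧ x ^ l ^ a ∈ N ∧
      ∀ h ∈ N, ∃ (k : ℕ), ¬ l ∣ orderOf (h ^ l ^ k) ∧ τ (h ^ l ^ k) = 1 := by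
  classical
  obtain ⟨B, hB⟩ := Cfsg.Agent.H640.exists_valRing l
  obtain ⟨σ, P, P', hP1, hP2, hσ⟩ := Cfsg.Agent.H640.exists_integral B τ
  let φ : B →+* ResidueField B := residue B
  have hu : ∀ b, φ b ≠ 0 → IsUnit b := fun b hb => (residue_ne_zero_iff_isUnit b).1 hb
  have hal : Function.Injective (algebraMap B ℂ) := fun u v huv => Subtype.ext huv
  -- the normal subgroup
  let τ' : H →* Matrix (Fin n) (Fin n) (ResidueField B) := (φ.mapMatrix.toMonoidHom : _ →* _).comp σ
  have hτ' : ∀ g, τ' g = (σ g).map φ := fun g => rfl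
  let N : Subgroup H := τ'.toHomUnits.ker
  have hN : N.Normal := MonoidHom.normal_ker _
  have hNmem : ∀ g, g ∈ N ↔ (σ g).map φ = 1 := by
    intro g
    rw [MonoidHom.mem_ker, ← hτ', Units.ext_iff]
    rfl
  refine ⟨N, hN, ?_, ?_⟩
  · -- the power of `x`
    rw [hNmem]
    rcases Nat.eq_zero_or_pos n with hn | hn
    · subst hn
      exact Subsingleton.elim _ _
    have hmem : ∀ z ∈ T, z ∈ B := by
      intro z hz
      obtain ⟨m, hm, h1⟩ := hroot z hz
      exact Cfsg.Agent.H640.mem_of_pow_eq_one hm h1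
    let b : ℂ → B := fun z => if h : z ∈ B then ⟨z, h⟩ else 0
    have hb : ∀ z ∈ T, algebraMap B ℂ (b z) = z := by
      intro z hz
      have : b z = ⟨z, hmem z hz⟩ := dif_pos (hmem z hz)
      rw [this]
      rfl
    have h1 : aeval (σ x) (∏ z ∈ T, (Polynomial.X - C (b z))) = 0 := by
      apply Matrix.map_injective hal
      change (aeval (σ x) (∏ z ∈ T, (Polynomial.X - C (b z)))).map (algebraMap B ℂ) =
        (0 : Matrix (Fin n) (Fin n) B).map (algebraMap B ℂ)
      rw [aeval_map (algebraMap B ℂ), hσ, Polynomial.map_prod]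
      have h2 : ∏ z ∈ T, ((Polynomial.X - C (b z)).map (algebraMap B ℂ)) = ∏ z ∈ T, (Polynomial.X - C z) := by
        refine Finset.prod_congr rfl fun z hz => ?_
        rw [Polynomial.map_sub, Polynomial.map_X, Polynomial.map_C, hb z hz]
      rw [h2, aeval_conj _ _ _ hP1 hP2, h0, mul_zero, zero_mul]
      ext i j
      simp
    have h2 : aeval ((σ x).map φ) (∏ z ∈ T, (Polynomial.X - C (φ (b z)))) = 0 := by
      have h3 : (aeval (σ x) (∏ z ∈ T, (Polynomial.X - C (b z)))).map φ =
        (0 : Matrix (Fin n) (Fin n) B).map φ := by rw [h1]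
      rw [aeval_map φ, Polynomial.map_prod] at h3
      have h4 : ∏ z ∈ T, ((Polynomial.X - C (b z)).map φ) = ∏ z ∈ T, (Polynomial.X - C (φ (b z))) := by
        refine Finset.prod_congr rfl fun z hz => ?_
        rw [Polynomial.map_sub, Polynomial.map_X, Polynomial.map_C]
      rw [h4] at h3
      rw [h3]
      ext i j
      simp
    have hne : T.Nonempty := by
      rw [Finset.nonempty_iff_ne_empty]
      intro hT
      rw [hT, Finset.prod_empty, map_one] at h2
      have h3 := congrArg (fun M : Matrix (Fin n) (Fin n) (ResidueField B) => M ⟨0, hn⟩ ⟨0, hn⟩) h2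
      simp at h3
    obtain ⟨z₀, hz₀⟩ := hne
    have hall : ∀ z ∈ T, φ (b z) = 1 := by
      intro z hz
      obtain ⟨k, hk⟩ := hpow z hz
      have h3 : b z ^ l ^ k = 1 := by
        apply hal
        rw [map_pow, hb z hz, hk, map_one]
      have h4 := congrArg φ h3
      rw [map_pow, map_one, ← sub_eq_zero, show (1 : ResidueField B) = 1 ^ l ^ k from (one_pow _).symm,
        ← sub_pow_char_pow (p := l)] at h4
      exact sub_eq_zero.1 (eq_zero_of_pow_eq_zero h4)
    have h3 : ((σ x).map φ - (1 : Matrix (Fin n) (Fin n) (ResidueField B))) ^ T.card = 0 := by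
      rw [Finset.prod_congr rfl (fun z hz => by rw [hall z hz] :
        ∀ z ∈ T, (Polynomial.X - C (φ (b z))) = Polynomial.X - C 1), Finset.prod_const, map_pow, map_sub,
        aeval_X, aeval_C, map_one] at h2
      exact h2
    have h4 : ((σ x).map φ - (1 : Matrix (Fin n) (Fin n) (ResidueField B))) ^ l ^ a = 0 :=
      pow_eq_zero_of_le hcard h3
    have : Nonempty (Fin n) := ⟨⟨0, hn⟩⟩
    have hchar : CharP (Matrix (Fin n) (Fin n) (ResidueField B)) l := inferInstance
    rw [sub_pow_char_pow_of_commute _ _ (Commute.one_right _), sub_eq_zero] at h4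
    have h5 : (σ (x ^ l ^ a)).map φ = ((σ x).map φ) ^ l ^ a := by
      rw [map_pow]
      exact map_pow φ.mapMatrix (σ x) _
    rw [h5, h4, one_pow]
  · -- elements of `N`
    intro h hh
    obtain ⟨k, m, hm, hord⟩ : ∃ k m : ℕ, ¬ l ∣ m ∧ orderOf h = l ^ k * m := by
      obtain ⟨k, m, hm, h1⟩ := Nat.exists_eq_pow_mul_and_not_dvd (orderOf_pos h).ne' l (Fact.out : l.Prime).ne_one
      exact ⟨k, m, hm, h1⟩
    have hm0 : m ≠ 0 := by
      rintro rfl
      exact hm (dvd_zero l)
    have ho : orderOf (h ^ l ^ k) = m := by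
      rw [orderOf_pow, hord, Nat.gcd_eq_right (Dvd.intro _ rfl),
        Nat.mul_div_cancel_left _ (pow_pos (Fact.out : l.Prime).pos k)]
    have hNk : h ^ l ^ k ∈ N := N.pow_mem hh _
    rw [hNmem] at hNk
    -- a primitive root of unity
    obtain ⟨ζ, hζ⟩ : ∃ ζ : B, IsPrimitiveRoot ζ m := by
      have hζ0 := Complex.isPrimitiveRoot_exp m hm0
      have hmem : Complex.exp (2 * Real.pi * Complex.I / m) ∈ B :=
        Cfsg.Agent.H640.mem_of_pow_eq_one hm0 hζ0.pow_eq_one
      refine ⟨⟨_, hmem⟩, ?_⟩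
      exact IsPrimitiveRoot.of_map_of_injective (f := algebraMap B ℂ) hζ0 hal
    have hmk : (m : ResidueField B) ≠ 0 := by
      intro h1
      exact hm ((CharP.cast_eq_zero_iff (ResidueField B) l m).1 h1)
    have hYm : (σ (h ^ l ^ k)) ^ m = 1 := by
      rw [← map_pow, ← ho, pow_orderOf_eq_one, map_one]
    rcases Nat.eq_zero_or_pos n with hn | hn
    · subst hn
      exact ⟨k, by rw [ho]; exact hm, Subsingleton.elim _ _⟩
    obtain ⟨z, hz⟩ := scalar_lift hu (σ (h ^ l ^ k)) hmk hζ hYm (c := 1) (by rw [hNk, one_smul])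
    have hz1 : z = 1 := by
      refine eq_one_of_map (φ := φ) hmk ?_ ?_
      · have h1 := hYm
        rw [hz, _root_.smul_pow, one_pow] at h1
        have h3 := congrArg (fun M : Matrix (Fin n) (Fin n) B => M ⟨0, hn⟩ ⟨0, hn⟩) h1
        simpa using h3
      · have h1 := hNk
        rw [hz] at h1
        have h3 := congrArg (fun M : Matrix (Fin n) (Fin n) (ResidueField B) => M ⟨0, hn⟩ ⟨0, hn⟩) h1
        simpa using h3
    refine ⟨k, by rw [ho]; exact hm, ?_⟩
    have h1 := hσ (h ^ l ^ k)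
    rw [hz, hz1, one_smul] at h1
    have h2 : (1 : Matrix (Fin n) (Fin n) B).map (algebraMap B ℂ) = 1 := by
      ext i j
      rw [Matrix.map_apply, Matrix.one_apply, Matrix.one_apply]
      split_ifs <;> simp
    rw [h2] at h1
    calc τ (h ^ l ^ k) = (P * P') * τ (h ^ l ^ k) * (P * P') := by rw [hP1, one_mul, mul_one]
      _ = P * (P' * τ (h ^ l ^ k) * P) * P' := by simp only [mul_assoc]
      _ = 1 := by rw [← h1, mul_one, hP1]

/-- **The minimal polynomial lemma, faithful version.** -/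
theorem poly_one {F : Type*} [Field F] [Finite F] {p : ℕ} [Fact p.Prime] [CharP F p] (hcop : ¬ p ∣ Nat.card H)
    {n : ℕ} (σ : H →* GL (Fin n) F) (hσ : Function.Injective σ) {l : ℕ} [Fact l.Prime] {x : H} {a b : ℕ} {P : F[X]}
    (hP : P ≠ 0)
    (h0 : aeval ((σ x : GL (Fin n) F) : Matrix (Fin n) (Fin n) F) P = 0)
    (hx : x ^ l ^ b = 1) (hdeg : P.natDegree ≤ l ^ a) : x ^ l ^ a ∈ Cfsg.pCore l H := by
  classical
  let _ : Algebra (ZMod p) F := ZMod.algebra F p
  have hfin : Module.Finite (ZMod p) F := Module.Finite.of_finite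
  let j : F →ₐ[ZMod p] SmallSimple.WittRing.kbar p := IsAlgClosed.lift
  let j' : F →+* SmallSimple.WittRing.kbar p := j
  have hj : Function.Injective j' := j.injective
  let σ' : H →* GL (Fin n) (SmallSimple.WittRing.kbar p) := (Matrix.GeneralLinearGroup.map (j : F →+* _)).comp σ
  obtain ⟨τ, hτ⟩ := exists_lift (res_witt p) (D := H) (by
    intro h
    exact hcop ((CharP.cast_eq_zero_iff (SmallSimple.WittRing.kbar p) p _).1 h)) σ'
  obtain ⟨ι, hι⟩ := SmallSimple.WittRing.exists_embedding p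
  let φ : SmallSimple.WittRing.A p →+* SmallSimple.WittRing.kbar p :=
    WittVector.constantCoeff (p := p) (R := SmallSimple.WittRing.kbar p)
  have hu : ∀ b, φ b ≠ 0 → IsUnit b := fun b hb => (res_witt p).isUnit hb
  have hτv : ∀ g, (((τ g : GL (Fin n) (SmallSimple.WittRing.A p)) :
      Matrix (Fin n) (Fin n) (SmallSimple.WittRing.A p)).map φ) =
      ((σ g : GL (Fin n) F) : Matrix (Fin n) (Fin n) F).map j' := by
    intro g
    have h3 := congrArg (fun x : GL (Fin n) (SmallSimple.WittRing.kbar p) =>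
      (x : Matrix (Fin n) (Fin n) (SmallSimple.WittRing.kbar p))) (hτ g)
    exact h3
  let f : H →* Matrix (Fin n) (Fin n) ℂ :=
    (ι.mapMatrix : Matrix (Fin n) (Fin n) (SmallSimple.WittRing.A p) →+* Matrix (Fin n) (Fin n) ℂ).toMonoidHom.comp
      ((Units.coeHom _).comp τ)
  have hfv : ∀ g, f g = ((τ g : GL (Fin n) (SmallSimple.WittRing.A p)) :
      Matrix (Fin n) (Fin n) (SmallSimple.WittRing.A p)).map ι := fun g => rfl
  -- roots of unity
  have hm0 : 0 < orderOf x := orderOf_pos x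
  have hmp : ¬ p ∣ orderOf x := fun h => hcop (h.trans (orderOf_dvd_natCard x))
  have hmk : ((orderOf x : ℕ) : SmallSimple.WittRing.kbar p) ≠ 0 := fun h =>
    hmp ((CharP.cast_eq_zero_iff (SmallSimple.WittRing.kbar p) p _).1 h)
  obtain ⟨ζ, hζ⟩ := SmallSimple.WittRing.exists_isPrimitiveRoot p
    (n := orderOf x) ((Nat.Prime.coprime_iff_not_dvd (Fact.out : p.Prime)).2 hmp).symm
  have hprod := prod_roots hm0 hζ
  have hroot : ∀ z ∈ nthRootsFinset (orderOf x) (1 : SmallSimple.WittRing.A p), z ^ orderOf x = 1 :=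
    fun z hz => (mem_nthRootsFinset hm0 _).1 hz
  let Tall := nthRootsFinset (orderOf x) (1 : SmallSimple.WittRing.A p)
  let Q : (SmallSimple.WittRing.kbar p)[X] := Polynomial.X ^ l ^ b - 1
  let P' := P.map j'
  have hP' : P' ≠ 0 := (Polynomial.map_ne_zero_iff hj).2 hP
  let T1 := Tall.filter fun z => P'.IsRoot (φ z) ∧ Q.IsRoot (φ z)
  let T2 := Tall.filter fun z => ¬ (P'.IsRoot (φ z) ∧ Q.IsRoot (φ z))
  have hPx : aeval (((σ x : GL (Fin n) F) : Matrix (Fin n) (Fin n) F).map j') P' = 0 := by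
    rw [← aeval_map, h0]
    ext i k
    simp
  have hQx : aeval (((σ x : GL (Fin n) F) : Matrix (Fin n) (Fin n) F).map j') Q = 0 := by
    have h2 : Q = (Polynomial.X ^ l ^ b - 1 : F[X]).map j' := by
      rw [Polynomial.map_sub, Polynomial.map_pow, Polynomial.map_X, Polynomial.map_one]
    have h3 : ((σ x : GL (Fin n) F) : Matrix (Fin n) (Fin n) F) ^ l ^ b = 1 := by
      rw [← Units.val_pow_eq_pow_val, ← map_pow, hx, map_one, Units.val_one]
    rw [h2, ← aeval_map, map_sub, map_pow, aeval_X, map_one, h3, sub_self]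
    ext i k
    simp
  have h1 : aeval ((τ x : GL (Fin n) (SmallSimple.WittRing.A p)) :
      Matrix (Fin n) (Fin n) (SmallSimple.WittRing.A p)) (∏ z ∈ T1, (Polynomial.X - C z)) = 0 := by
    refine aeval_eq_zero_of (φ := φ) hu _ _ (∏ z ∈ T2, (Polynomial.X - C z)) (EuclideanDomain.gcd P' Q) ?_ ?_ ?_
    · rw [Finset.prod_filter_mul_prod_filter_not, hprod, map_sub, map_pow, aeval_X, map_one]
      have h2 : (τ x) ^ orderOf x = 1 := by rw [← map_pow, pow_orderOf_eq_one, map_one]
      have h3 := congrArg (fun x : GL (Fin n) (SmallSimple.WittRing.A p) =>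
        (x : Matrix (Fin n) (Fin n) (SmallSimple.WittRing.A p))) h2
      simp only [Units.val_pow_eq_pow_val, Units.val_one] at h3
      rw [h3, sub_self]
    · rw [hτv, EuclideanDomain.gcd_eq_gcd_ab P' Q, map_add, map_mul, map_mul, hPx, hQx, zero_mul, zero_mul, add_zero]
    · rw [Polynomial.map_prod]
      refine IsCoprime.prod_right fun z hz => ?_
      rw [Polynomial.map_sub, Polynomial.map_X, Polynomial.map_C]
      rw [isCoprime_comm, (Polynomial.irreducible_X_sub_C (φ z)).coprime_iff_not_dvd]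
      intro h2
      refine (Finset.mem_filter.1 hz).2 ⟨?_, ?_⟩
      · exact Polynomial.dvd_iff_isRoot.1 (h2.trans (EuclideanDomain.gcd_dvd_left _ _))
      · exact Polynomial.dvd_iff_isRoot.1 (h2.trans (EuclideanDomain.gcd_dvd_right _ _))
  have hinj : ∀ z ∈ T1, ∀ w ∈ T1, φ z = φ w → z = w := by
    intro z hz w hw hzw
    exact eq_of_map hmk (hroot z (Finset.mem_filter.1 hz).1) (hroot w (Finset.mem_filter.1 hw).1) hzw
  have hQr : ∀ z ∈ T1, (φ z) ^ l ^ b = 1 := by
    intro z hz
    have h2 := (Finset.mem_filter.1 hz).2.2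
    rw [Polynomial.IsRoot.def, Polynomial.eval_sub, Polynomial.eval_pow, Polynomial.eval_X, Polynomial.eval_one,
      sub_eq_zero] at h2
    exact h2
  obtain ⟨N, hN, hxN, hNs⟩ := char0_one (l := l) (x := x) (a := a) f (T1.image ι) (by
      have h2 : ∏ w ∈ T1.image ι, (Polynomial.X - C w) = (∏ z ∈ T1, (Polynomial.X - C z)).map ι := by
        rw [Polynomial.map_prod, Finset.prod_image (fun a _ b _ hab => hι hab)]
        refine Finset.prod_congr rfl fun z hz => ?_
        rw [Polynomial.map_sub, Polynomial.map_X, Polynomial.map_C]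
      rw [hfv, h2, ← aeval_map, h1]
      ext i k
      simp)
    (by
      intro z hz
      obtain ⟨w, hw, rfl⟩ := Finset.mem_image.1 hz
      refine ⟨orderOf x, hm0.ne', ?_⟩
      rw [← map_pow, hroot w (Finset.mem_filter.1 hw).1, map_one])
    (by
      intro z hz
      obtain ⟨z', hz', rfl⟩ := Finset.mem_image.1 hz
      refine ⟨b, ?_⟩
      rw [← map_pow]
      have h2 : z' ^ l ^ b = 1 := by
        refine eq_of_map (φ := φ) hmk (r := orderOf x) ?_ (one_pow _) ?_
        · rw [← pow_mul, mul_comm, pow_mul, hroot z' (Finset.mem_filter.1 hz').1, one_pow]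
        · rw [map_pow, hQr z' hz', map_one]
      rw [h2, map_one])
    (by
      refine Finset.card_image_le.trans (le_trans ?_ hdeg)
      have h2 : P'.natDegree = P.natDegree := Polynomial.natDegree_map_eq_of_injective hj P
      rw [← h2]
      refine le_trans ?_ (le_trans (Multiset.toFinset_card_le P'.roots) (Polynomial.card_roots' P'))
      refine Finset.card_le_card_of_injOn φ (fun z hz => ?_) (fun z hz w hw h => hinj z hz w hw h)
      simp only [Finset.mem_coe, Multiset.mem_toFinset]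
      exact (Polynomial.mem_roots hP').2 (Finset.mem_filter.1 hz).2.1)
  have hNp : IsPGroup l N := by
    intro h
    obtain ⟨k, hk, hc⟩ := hNs h h.2
    refine ⟨k, Subtype.ext ?_⟩
    rw [hfv] at hc
    have h2 : ((τ ((h : H) ^ l ^ k) : GL (Fin n) (SmallSimple.WittRing.A p)) :
        Matrix (Fin n) (Fin n) (SmallSimple.WittRing.A p)) = 1 := by
      apply Matrix.map_injective hι
      change ((τ ((h : H) ^ l ^ k) : GL (Fin n) (SmallSimple.WittRing.A p)) :
        Matrix (Fin n) (Fin n) (SmallSimple.WittRing.A p)).map ι =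
          (1 : Matrix (Fin n) (Fin n) (SmallSimple.WittRing.A p)).map ι
      rw [hc]
      ext i m
      rw [Matrix.map_apply, Matrix.one_apply, Matrix.one_apply]
      split_ifs <;> simp
    apply hσ
    apply Units.ext
    apply Matrix.map_injective hj
    change ((σ ((h : H) ^ l ^ k) : GL (Fin n) F) : Matrix (Fin n) (Fin n) F).map j' =
      ((σ ((1 : N) : H) : GL (Fin n) F) : Matrix (Fin n) (Fin n) F).map j'
    rw [← hτv, h2, Subgroup.coe_one, map_one]
    ext i m
    rw [Matrix.map_apply, Matrix.map_apply, Units.val_one, Matrix.one_apply, Matrix.one_apply]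
    split_ifs <;> simp
  exact (le_sSup (show N ∈ {N : Subgroup H | N.Normal ∧ IsPGroup l N} from ⟨hN, hNp⟩) : N ≤ Cfsg.pCore l H) hxN

end Cfsg.Agent.H340.MP
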